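import Groth.Agent.CycB.SetupLft
import Groth.Agent.CycB.RelDim2
import Groth.Agent.Ega4A.CatenaryDim
import Groth.Agent.Localalg.GrpDim
import Mathlib.AlgebraicGeometry.Morphisms.UnderlyingMap

/-!
# Dimension of irreducible schemes locally of finite type over a Jacobson base
-/

set_option autoImplicit false
universe u
open CategoryTheory AlgebraicGeometry TopologicalSpace Topology
open Groth.Agent.CycB Groth.Agent.CycB.AffinePt Groth.Agent.CycB.RelDim

namespace Groth.Agent.Ega4fib.H175.JacobsonDim

variable {X Y S : Scheme.{u}}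

/-- `O_{X,x}/𝔭_ζ` has finite dimension. -/
theorem exists_dim_locQuot [IsLocallyNoetherian X] {x ζ : X} (h : ζ ⤳ x) :
    ∃ n : ℕ, ringKrullDim (Cyc.LocQuot x ζ h) = n := by
  have h1 := ringKrullDim_lt_top (R := Cyc.LocQuot x ζ h)
  have h2 : 0 ≤ ringKrullDim (Cyc.LocQuot x ζ h) := ringKrullDim_nonneg_of_nontrivial
  generalize ringKrullDim (Cyc.LocQuot x ζ h) = d at *
  induction d using WithBot.recBotCoe with
  | bot => simp at h2
  | coe d =>
    induction d using ENat.recTopCoe with
    | top => exact absurd h1 (lt_irrefl _)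
    | coe n => exact ⟨n, rfl⟩

/-- Additivity of `dim (O_{X,x}/𝔭_ζ)` over a scheme with universally catenary local rings. -/
theorem dim_locQuot_add [IsLocallyNoetherian X]
    (hcat : ∀ y : X, CAlg.IsUniversallyCatenary (X.presheaf.stalk y)) {x z ζ : X}
    (h1 : ζ ⤳ z) (h2 : z ⤳ x) :
    ringKrullDim (Cyc.LocQuot x ζ (h1.trans h2)) =
      ringKrullDim (Cyc.LocQuot z ζ h1) + ringKrullDim (Cyc.LocQuot x z h2) := by
  obtain ⟨U, hU, hxU, -⟩ := exists_isAffineOpen_mem_and_subset (X := X) (x := x) (U := ⊤) trivial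
  have hzU : z ∈ U := h2.mem_open U.2 hxU
  have hζU : ζ ∈ U := h1.mem_open U.2 hzU
  have hN : IsNoetherianRing Γ(X, U) := IsLocallyNoetherian.component_noetherian ⟨U, hU⟩
  have hc := CalgA.UnivCat.isCatenary_of_isUniversallyCatenary
    (SetupLft.isUniversallyCatenary_of_isAffineOpen hcat hU)
  have p1 : (evK x hxU).IsPrime := RingHom.ker_isPrime _
  have p2 : (evK z hzU).IsPrime := RingHom.ker_isPrime _
  have p3 : (evK ζ hζU).IsPrime := RingHom.ker_isPrime _
  have l1 : (⟨evK ζ hζU, p3⟩ : PrimeSpectrum Γ(X, U)) ≤ ⟨evK z hzU, p2⟩ :=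
    evK_le_of_specializes hζU hzU h1
  have l2 : (⟨evK z hzU, p2⟩ : PrimeSpectrum Γ(X, U)) ≤ ⟨evK x hxU, p1⟩ :=
    evK_le_of_specializes hzU hxU h2
  have key := Ega4A.CatenaryDim.relHt_add_relHt hc l1 l2
  rw [← Ega4A.CatenaryDim.height_map_mk_eq_relHt _ _ l1,
    ← Ega4A.CatenaryDim.height_map_mk_eq_relHt _ _ l2,
    ← Ega4A.CatenaryDim.height_map_mk_eq_relHt _ _ (l1.trans l2)] at key
  rw [← height_map_evK hU hζU hxU (h1.trans h2), ← height_map_evK hU hζU hzU h1,
    ← height_map_evK hU hzU hxU h2]
  exact_mod_cast key.symm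

/-- The map `Spec (O_{X,x}/𝔭_ζ) ⟶ X` is an embedding with image the points between `ζ` and `x`. -/
theorem dim_between {x ζ : X} (h : ζ ⤳ x) :
    topologicalKrullDim ↥{t : X | ζ ⤳ t ∧ t ⤳ x} = ringKrullDim (Cyc.LocQuot x ζ h) := by
  let π := CommRingCat.ofHom (Ideal.Quotient.mk (RingHom.ker (Cyc.specMap x ζ h)))
  have hπ : Function.Surjective π.hom := Ideal.Quotient.mk_surjective
  let g := Spec.map π ≫ X.fromSpecStalk x
  have hemb : IsEmbedding g := by
    have h1 : IsEmbedding (Spec.map π) :=
      (PrimeSpectrum.isClosedEmbedding_comap_of_surjective _ _ hπ).isEmbedding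
    have h2 := (X.fromSpecStalk x).isEmbedding
    exact h2.comp h1
  have hrange : Set.range g = {t : X | ζ ⤳ t ∧ t ⤳ x} := by
    ext t
    constructor
    · rintro ⟨P, rfl⟩
      have h1 : g P = X.fromSpecStalk x (Spec.map π P) := rfl
      rw [h1]
      refine ⟨?_, LocQuot.fromSpecStalk_specializes _⟩
      rw [← LocQuot.primeOf_le_iff h (LocQuot.fromSpecStalk_specializes _),
        LocQuot.primeOf_fromSpecStalk]
      intro a ha
      rw [LocQuot.primeOf_asIdeal] at ha
      change π.hom a ∈ P.asIdeal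
      have : π.hom a = 0 := Ideal.Quotient.eq_zero_iff_mem.2 ha
      rw [this]
      exact zero_mem _
    · rintro ⟨h1, h2⟩
      have h3 : LocQuot.primeOf h ≤ LocQuot.primeOf h2 := (LocQuot.primeOf_le_iff h h2).2 h1
      have h4 : LocQuot.primeOf h2 ∈ Set.range (PrimeSpectrum.comap π.hom) := by
        rw [range_comap_of_surjective _ _ hπ, PrimeSpectrum.mem_zeroLocus]
        have : RingHom.ker π.hom = RingHom.ker (Cyc.specMap x ζ h) := Ideal.mk_ker
        rw [this, ← LocQuot.primeOf_asIdeal]
        exact h3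
      obtain ⟨P, hP⟩ := h4
      refine ⟨P, ?_⟩
      have h5 : g P = X.fromSpecStalk x (Spec.map π P) := rfl
      have h6 : Spec.map π P = LocQuot.primeOf h2 := hP
      rw [h5, h6, LocQuot.fromSpecStalk_primeOf]
  rw [← hrange, ← PrimeSpectrum.topologicalKrullDim_eq_ringKrullDim]
  exact (IsHomeomorph.topologicalKrullDim_eq _ hemb.toHomeomorph.isHomeomorph).symm

/-- On an irreducible scheme the coheight of a point is the dimension of its reduced local ring. -/
theorem coheight_eq_dim_locQuot [IrreducibleSpace X] (x : X) :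
    ringKrullDim (Cyc.LocQuot x (genericPoint X) (genericPoint_specializes x)) =
      Order.coheight x := by
  rw [← ringKrullDim_stalk_eq_coheight]
  rw [ringKrullDim_quotient]
  have : PrimeSpectrum.zeroLocus (R := X.presheaf.stalk x) (RingHom.ker (Cyc.specMap x
      (genericPoint X) (genericPoint_specializes x))) = Set.univ := by
    refine Set.eq_univ_of_forall fun P => ?_
    have h1 : LocQuot.primeOf (genericPoint_specializes x) ≤ P := by
      rw [← LocQuot.primeOf_fromSpecStalk P, LocQuot.primeOf_le_iff]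
      exact genericPoint_specializes _
    rw [PrimeSpectrum.mem_zeroLocus, ← LocQuot.primeOf_asIdeal]
    exact h1
  rw [this, ringKrullDim]
  exact Order.krullDim_eq_of_orderIso OrderIso.Set.univ

/-- Over any base, a closed point of a scheme locally of finite type has algebraic residue field. -/
theorem rtd_eq_zero_of_isClosed (f : X ⟶ Y) [LocallyOfFiniteType f] {x : X}
    (hx : IsClosed ({x} : Set X)) : rtd f x = 0 := by
  obtain ⟨n, hn, hn'⟩ := exists_dim_closure_fiber f (f x) (f.asFiber x)
  rw [Scheme.Hom.fiberι_asFiber] at hn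
  have h1 : IsClosed ({f.asFiber x} : Set (f.fiber (f x))) := by
    have : ({f.asFiber x} : Set (f.fiber (f x))) = f.fiberι (f x) ⁻¹' {x} := by
      ext z
      simp only [Set.mem_singleton_iff, Set.mem_preimage]
      constructor
      · rintro rfl
        exact f.fiberι_asFiber x
      · intro hz
        apply (f.fiberι (f x)).isEmbedding.injective
        rw [hz, f.fiberι_asFiber]
    rw [this]
    exact hx.preimage (f.fiberι (f x)).continuous
  rw [h1.closure_eq] at hn'
  have h2 : topologicalKrullDim ↥({f.asFiber x} : Set (f.fiber (f x))) ≤ 0 :=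
    topologicalKrullDim_zero_of_discreteTopology _
  rw [hn'] at h2
  have h3 : n = 0 := by
    have : n ≤ 0 := by exact_mod_cast h2
    omega
  rw [hn, h3, Nat.cast_zero]

end Groth.Agent.Ega4fib.H175.JacobsonDim
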